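import Cfsg.Agent.H347.Tri.Gen
import Cfsg.Agent.H630.ExcRowsD

/-!
# Transitivity of `Cond {p, q}` in cross characteristic: `³D₄` (helper347, for S4335)
-/

set_option autoImplicit false
set_option linter.unusedSectionVars false
set_option linter.unusedVariables false

namespace Cfsg.Agent.H347.Tri

open CoxeterSystem Cfsg Cfsg.Lie Cfsg.Lie.ChevalleyDatum
open Cfsg.Agent.ChevalleyStructure Cfsg.Agent.ChevalleyStructure.Elts Cfsg.Agent.ChevalleyStructure.CoxeterGeom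
  Cfsg.Agent.ChevalleyStructure.CoxeterGeomTypes Cfsg.Agent.ChevalleyStructure.NPerm
open Cfsg.Agent.Tits.Roots Cfsg.Agent.Tits.Core Cfsg.Agent.Nodes Cfsg.Agent.Nodes.Reps Cfsg.Agent.Nodes.BNOf
  Cfsg.Agent.Nodes.RGDChev Cfsg.Agent.Nodes.Bruhat Cfsg.Agent.Nodes.SubComb Cfsg.Agent.Nodes.Coroot
open Cfsg.Agent.KFacts.RgdField Cfsg.Agent.KFacts.RgdChevCoord Cfsg.Agent.BpExc.TorCent Cfsg.Agent.BpExc.TorChev
open Cfsg.Agent.GpExc.Field Cfsg.Agent.BpExc.Tow Cfsg.Agent.BpExc.TowChev Cfsg.Agent.BpExc.Fr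
  Cfsg.Agent.BpExc.LangFr Cfsg.Agent.LangThm Cfsg.Agent.BpExc Cfsg.Agent.H129.TorusChar Cfsg.Agent.H129.TorusMain
open Cfsg.Agent.H129.TriD4 (tau isFrob_tau fr_tau embT embT_injective tau_embT tau_range tri tri_apply tri_sr
  tri_three)
open Cfsg.Agent.H630.NH Cfsg.Agent.H130.WeylCk Cfsg.Agent.H130.PolyL Cfsg.Agent.H130.WeylTab
open Cfsg.Agent.H630.Exc Cfsg.Agent.H165.TriRow

universe u v

section D4

variable {W : Type*} [Group W] (cs : CoxeterSystem coxeterD4 W)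
variable {k : Type u} [Field k] {p e : ℕ} [hpF : Fact p.Prime] [CharP k p] {σ : MulAut ↥(chevD4.group k)}
  {X : Type v} [Group X] {e0 : X →* ↥(chevD4.group k)} (S : Setup RGDTwD4.hp cs p e σ tri e0 1)

include S

/-- **`³D₄`.** -/
theorem crossTri_D4_gen [IsAlgClosed k] [Finite W] [Finite X]
    {g' N' : ℕ} (hcard : g' * Nat.card X = (p ^ e) ^ N' * (fsD4 (p ^ e : ℕ)).natAbs) : CrossTri p X := by
  have hpp : p.Prime := Fact.out
  apply CrossTri.of_torus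
  intro r q₁ q₂ hr h₁ h₂ hr2 h12' h22 hrp h1p h2p hr1 hr2' h12'' hrX h1X h2X hc₁ hc₂
  obtain ⟨q, hq⟩ : ∃ q : ℤ, q = ((p ^ e : ℕ) : ℤ) := ⟨_, rfl⟩
  rw [← hq] at hcard
  have h1 : (1 : ℤ) = 1 ∨ (1 : ℤ) = -1 := Or.inl rfl
  have hQ1 : q = 1 * (p ^ e : ℕ) := by rw [hq, one_mul]
  have hev : ∀ {ε : ℤ}, (ε = 1 ∨ ε = -1) → fsD4 (ε * q) = fsD4 q := by
    rintro ε (rfl | rfl) <;> unfold fsD4 <;> ring
  have hcardε : ∀ {ε : ℤ}, (ε = 1 ∨ ε = -1) → g' * Nat.card X = (p ^ e) ^ N' * (fsD4 (ε * q)).natAbs := by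
    intro ε hε
    rw [hev hε]; exact hcard
  -- the two pairs
  have hcs : ∀ s ∈ ({q₁, q₂} : Set ℕ), s.Prime ∧ s ≠ 2 ∧ s ≠ p ∧ s ∣ Nat.card X ∧ r ≠ s ∧ Cond {r, s} X := by
    rintro s (rfl | rfl)
    · exact ⟨h₁, h12', h1p, h1X, hr1, hc₁⟩
    · exact ⟨h₂, h22, h2p, h2X, hr2', hc₂⟩
  have hπ : ∀ s ∈ ({q₁, q₂} : Set ℕ), ∀ t ∈ ({r, s} : Set ℕ), t.Prime ∧ t ≠ 2 ∧ t ≠ p ∧ t ∣ Nat.card X := by
    intro s hs t ht
    rcases ht with rfl | rfl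
    · exact ⟨hr, hr2, hrp, hrX⟩
    · obtain ⟨g1, g2, g3, g4, -⟩ := hcs _ hs
      exact ⟨g1, g2, g3, g4⟩
  have hrm : ∀ s : ℕ, r ∈ ({r, s} : Set ℕ) := fun s => by simp
  have hsm : ∀ s : ℕ, s ∈ ({r, s} : Set ℕ) := fun s => by simp
  have hfin : (∃ T : Subgroup X, IsMulCommutative T ∧ ∀ s ∈ ({q₁, q₂} : Set ℕ), ¬ s ∣ T.index) →
      ∃ T : Subgroup X, IsMulCommutative T ∧ ¬ q₁ ∣ T.index ∧ ¬ q₂ ∣ T.index := by
    rintro ⟨T, hT, hi⟩
    exact ⟨T, hT, hi q₁ (by simp), hi q₂ (by simp)⟩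
  apply hfin
  -- the order of `q` modulo `r`
  have hord : orderOf (q : ZMod r) ∈ [1, 2, 3, 6, 12] := by
    have hrZ := Nat.prime_iff_prime_int.1 hr
    have hQr := not_dvd_Q (p := p) (e := e) Fact.out hr hrp h1 hQ1
    have h5 : r ∣ (p ^ e) ^ N' * (fsD4 q).natAbs := by
      rw [← hcard]; exact hrX.mul_left _
    rcases hr.dvd_mul.1 h5 with h6 | h6
    · exact absurd ((Nat.prime_dvd_prime_iff_eq hr hpp).1 (hr.dvd_of_dvd_pow (hr.dvd_of_dvd_pow h6))) hrp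
    · have h7 : (r : ℤ) ∣ fsD4 q := Int.natCast_dvd.2 h6
      have h12 : orderOf (q : ZMod r) ∣ 12 ∧ orderOf (q : ZMod r) ≠ 4 := by
        rcases hrZ.dvd_mul.1 h7 with h8 | h8
        · rcases hrZ.dvd_mul.1 h8 with h9 | h9
          · have h10 := (dvd_pow_sub_one_iff 2).1 h9
            exact ⟨h10.trans (by norm_num), fun h11 => by rw [h11] at h10; revert h10; decide⟩
          · have h10 := (dvd_pow_sub_one_iff 6).1 h9
            exact ⟨h10.trans (by norm_num), fun h11 => by rw [h11] at h10; revert h10; decide⟩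
        · refine ⟨(dvd_pow_sub_one_iff 12).1 (h8.trans ⟨q ^ 4 - 1, by ring⟩), fun h11 => ?_⟩
          have h9 := (dvd_pow_sub_one_iff (r := r) (Q := q) 4).2 (by rw [h11])
          have h10 := dvd_sub h8 (h9.mul_right (q ^ 4 + 2))
          rw [show q ^ 8 + q ^ 4 + 1 - (q ^ 4 - 1) * (q ^ 4 + 2) = 3 by ring] at h10
          obtain rfl := (Nat.prime_dvd_prime_iff_eq hr Nat.prime_three).1 (by exact_mod_cast h10)
          have h12 := ord_dvd hr hQr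
          rw [h11] at h12
          revert h12
          decide
      have h13 : ∀ n < 13, n ∣ 12 ∧ n ≠ 4 → n ∈ [1, 2, 3, 6, 12] := by decide
      exact h13 _ (Nat.lt_succ_of_le (Nat.le_of_dvd (by norm_num) h12.1)) h12
  by_cases h12 : orderOf (q : ZMod r) = 12
  · exact D4_pos12 cs S h1 hQ1 hcard fun s hs => ⟨(hcs s hs).1, (hcs s hs).2.1, (hcs s hs).2.2.1,
      D4_all12 cs S (hπ s hs) (hcs s hs).2.2.2.2.2 h1 hQ1 (hrm s) (hsm s) h12⟩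
  by_cases h3 : ∃ ε : ℤ, (ε = 1 ∨ ε = -1) ∧ orderOf ((ε * q : ℤ) : ZMod r) = 3
  · obtain ⟨ε, hε, hrn⟩ := h3
    have hQε : ε * q = ε * (p ^ e : ℕ) := by rw [hq]
    exact D4_pos3 cs S hε hQε (hcardε hε) fun s hs => ⟨(hcs s hs).1, (hcs s hs).2.1, (hcs s hs).2.2.1,
      D4_all3 cs S (hπ s hs) (hcs s hs).2.2.2.2.2 hε hQε (hrm s) (hsm s) hrn⟩
  -- order at most two
  have hε0 : ∃ ε : ℤ, (ε = 1 ∨ ε = -1) ∧ orderOf ((ε * q : ℤ) : ZMod r) = 1 := by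
    have h4 := hord
    simp only [List.mem_cons, List.not_mem_nil, or_false] at h4
    rcases h4 with h4 | h4 | h4 | h4 | h4
    · exact ⟨1, h1, by rw [one_mul]; exact h4⟩
    · refine ⟨-1, Or.inr rfl, ?_⟩
      rw [neg_one_mul]
      exact order_neg hr (n := 1) h4 (by norm_num) one_pos
    · exact absurd ⟨1, h1, by rw [one_mul]; exact h4⟩ h3
    · refine absurd ⟨-1, Or.inr rfl, ?_⟩ h3
      rw [neg_one_mul]
      exact order_neg hr (n := 3) h4 (by norm_num) (by norm_num)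
    · exact absurd h4 h12
  obtain ⟨ε, hε, h5⟩ := hε0
  have hQε : ε * q = ε * (p ^ e : ℕ) := by rw [hq]
  have hd0 : (r : ℤ) ∣ ε * q - 1 := by
    have := (dvd_pow_sub_one_iff (r := r) (Q := ε * q) 1).2 (by rw [h5])
    rwa [pow_one] at this
  have hall : ∀ s ∈ ({q₁, q₂} : Set ℕ), orderOf ((ε * q : ℤ) : ZMod s) = 1 := by
    intro s hs
    obtain ⟨g1, g2, g3, g4, g5, g6⟩ := hcs s hs
    have : Fact s.Prime := ⟨g1⟩
    obtain ⟨y, hy⟩ := exists_prime_orderOf_dvd_card' s g4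
    have h6 := D4_one cs S hr g1 (hrm s) (hsm s) g5 hrp hr2 hε hQε hd0 g6 (y := y)
      ⟨1, by rw [hy, pow_one]⟩
    have h7 := orderOf_dvd_of_pow_eq_one h6
    rw [hy] at h7
    have h8 := (dvd_pow_sub_one_iff 3).1 (Int.natCast_dvd.2 h7)
    rcases (Nat.dvd_prime Nat.prime_three).1 h8 with h9 | h9
    · exact h9
    · exact absurd ⟨ε, hε, D4_all3 cs S (hπ s hs) g6 hε hQε (hsm s) (hrm s) h9⟩ h3
  have hd : ∀ s ∈ ({q₁, q₂} : Set ℕ), (s : ℤ) ∣ ε * q - 1 := fun s hs => by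
    have := (dvd_pow_sub_one_iff (r := s) (Q := ε * q) 1).2 (by rw [hall s hs])
    rwa [pow_one] at this
  have hn3 : ∀ s ∈ ({q₁, q₂} : Set ℕ), s ≠ 3 := by
    rintro s hs rfl
    obtain ⟨g1, g2, g3, g4, g5, g6⟩ := hcs 3 hs
    exact D4_bad cs S hr (hsm 3) (hrm 3) g5.symm g3 hrX hε hQε (hd 3 hs) hd0 g6
  exact D4_pos1 cs S hε hQε (hcardε hε) fun s hs => ⟨(hcs s hs).1, (hcs s hs).2.1, hn3 s hs, (hcs s hs).2.2.1,
    hall s hs⟩

end D4

/-- **Type `³D₄`.** -/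
theorem crossTri_twD4 (r : ℕ) [Fact r.Prime] (F : Type u) [Field F] [Fintype F] [CharP F r] {q : ℕ}
    (hq : IsPrimePow q) (hF : Fintype.card F = q ^ 3) : CrossTri r ↥(twistedD4 F q) := by
  obtain ⟨k, _, _, f, p, hpp, hkp, e', hk, hka, he0', hcF⟩ := H378.TorFin.exists_closure F
  have hkr : CharP k r := charP_of_injective_ringHom f.injective r
  obtain rfl : r = p := CharP.eq k hkr hkp
  obtain ⟨e, he0, hqe⟩ : ∃ e, 0 < e ∧ q = r ^ e := by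
    obtain ⟨r', e, hr', he, rfl⟩ := hq
    have h1 : r' ∣ r ^ e' := by
      rw [← hcF, Nat.card_eq_fintype_card, hF]
      exact (dvd_pow_self r' he.ne').trans (dvd_pow_self _ three_ne_zero)
    have h2 : r' = r := (Nat.prime_dvd_prime_iff_eq hr'.nat_prime hpp.out).1 (hr'.nat_prime.dvd_of_dvd_pow h1)
    exact ⟨e, he, by rw [h2]⟩
  have cs := coxeterD4.toCoxeterSystem
  have hW := finite_W RGDTwD4.hp cs
  have S := setup_twD4 cs hk f he0 hqe hq hF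
  refine crossTri_D4_gen cs S (g' := 1) (N' := 12) ?_
  rw [S1067.result hq hF, ← hqe, one_mul, fsD4, Int.natAbs_mul, Int.natAbs_mul]
  have ev : ∀ i : ℕ, ((q : ℤ) ^ i - 1).natAbs = q ^ i - 1 := by
    intro i
    have h1 : 1 ≤ q ^ i := Nat.one_le_pow _ _ hq.pos
    have h2 : ((q : ℕ) : ℤ) ^ i - 1 = ((q ^ i - 1 : ℕ) : ℤ) := by push_cast [Nat.cast_sub h1]; ring
    rw [h2, Int.natAbs_natCast]
  have e8 : ((q : ℤ) ^ 8 + (q : ℤ) ^ 4 + 1).natAbs = q ^ 8 + q ^ 4 + 1 := by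
    have : (q : ℤ) ^ 8 + (q : ℤ) ^ 4 + 1 = ((q ^ 8 + q ^ 4 + 1 : ℕ) : ℤ) := by push_cast; ring
    rw [this, Int.natAbs_natCast]
  rw [ev, ev, e8]
  ring

end Cfsg.Agent.H347.Tri
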